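/-
`p`-solvable groups: a `p'`-subgroup normalizing a Sylow `p`-subgroup has `p'`-automizer.
-/
import Cfsg.Agent.Lib.Core.PSolvable
import Cfsg.Agent.Lib.Core.CoprimeMap

set_option autoImplicit false

open Cfsg

namespace Cfsg.Agent.Lib.Core.PSolvable3

open Cfsg.Agent.Lib.Core.Basic Cfsg.Agent.Lib.Core.PSolvable

universe u

variable {G : Type u} [Group G] {p : ℕ}

/-- A `p`-element of `N` is conjugate in `N` into a Sylow `p`-subgroup of `G` contained in `N`. -/
theorem exists_conj_mem_of_sylow_le [Finite G] [Fact p.Prime] (P : Sylow p G) {N : Subgroup G}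
    (hPN : (P : Subgroup G) ≤ N) {x : G} (hxN : x ∈ N) (hx : ∃ k, x ^ p ^ k = 1) :
    ∃ u ∈ N, u * x * u⁻¹ ∈ (P : Subgroup G) := by
  have hp : p.Prime := Fact.out
  obtain ⟨k, hk⟩ := hx
  let x' : N := ⟨x, hxN⟩
  have hx' : x' ^ p ^ k = 1 := Subtype.ext hk
  have hz : IsPGroup p (Subgroup.zpowers x') := by
    obtain ⟨j, -, hj⟩ := (Nat.dvd_prime_pow hp).mp (orderOf_dvd_of_pow_eq_one hx')
    exact IsPGroup.of_card (n := j) (by rw [Nat.card_zpowers, hj])
  obtain ⟨S, hS⟩ := hz.exists_le_sylow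
  obtain ⟨u, hu⟩ := MulAction.exists_smul_eq N S (P.subtype hPN)
  refine ⟨u, u.2, ?_⟩
  have h1 : x' ∈ (S : Subgroup N) := hS (Subgroup.mem_zpowers x')
  have h2 : u * x' * u⁻¹ ∈ ((u • S : Sylow p N) : Subgroup N) := by
    rw [Sylow.coe_subgroup_smul]
    exact ⟨x', h1, rfl⟩
  rw [hu, Sylow.coe_subtype, Subgroup.mem_subgroupOf] at h2
  exact h2

/-- Let `Q` be a `p'`-subgroup normalizing a Sylow `p`-subgroup `P` in a `p`-solvable group.
Then every `p`-element normalizing `Q` centralizes `Q`. -/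
theorem commute_of_normalize_sylow [Fact p.Prime] (n : ℕ) :
    ∀ (G : Type u) [Group G] [Finite G], Nat.card G ≤ n → IsPSolvable p G →
      ∀ (Q : Subgroup G) (P : Sylow p G), (Nat.card Q).Coprime p →
      (∀ y ∈ Q, ∀ u ∈ (P : Subgroup G), y * u * y⁻¹ ∈ (P : Subgroup G)) →
      ∀ x : G, (∃ k, x ^ p ^ k = 1) → (∀ y ∈ Q, x * y * x⁻¹ ∈ Q) →
      ∀ y ∈ Q, x * y = y * x := by
  have hp : p.Prime := Fact.out
  induction n with
  | zero =>
    intro G _ _ h
    have := Nat.card_pos (α := G)
    omega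
  | succ n ih =>
    intro G _ _ hn hG Q P hQ hQP x hx hxQ
    by_cases hs : Subsingleton G
    · intro y _
      exact Subsingleton.elim _ _
    rw [not_subsingleton_iff_nontrivial] at hs
    obtain ⟨R, hRn, hR1, hRc⟩ := isPSolvable_exists_normal hG
    haveI := hRn
    set π := QuotientGroup.mk' R with hπdef
    have hπ : Function.Surjective π := QuotientGroup.mk'_surjective R
    have hcard : Nat.card (G ⧸ R) ≤ n := by
      have h1 : Nat.card G = Nat.card (G ⧸ R) * Nat.card R :=
        Subgroup.card_eq_card_quotient_mul_card_subgroup R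
      have h2 : 1 < Nat.card R := (Subgroup.one_lt_card_iff_ne_bot R).mpr hR1
      have h3 : 0 < Nat.card (G ⧸ R) := Nat.card_pos
      nlinarith
    have hq := ih (G ⧸ R) hcard (isPSolvable_of_surjective π hπ hG) (Q.map π)
      (P.mapSurjective hπ)
      (Nat.Coprime.coprime_dvd_left (Subgroup.card_map_dvd Q π) hQ)
      (by
        rintro _ ⟨y, hy, rfl⟩ _ hu
        rw [Sylow.coe_mapSurjective] at hu ⊢
        obtain ⟨u, hu, rfl⟩ := hu
        exact ⟨y * u * y⁻¹, hQP y hy u hu, by simp⟩)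
      (π x)
      (by
        obtain ⟨k, hk⟩ := hx
        exact ⟨k, by rw [← map_pow, hk, map_one]⟩)
      (by
        rintro _ ⟨y, hy, rfl⟩
        exact ⟨x * y * x⁻¹, hxQ y hy, by simp⟩)
    have hc : ∀ y ∈ Q, x * y * x⁻¹ * y⁻¹ ∈ Q ⊓ R := by
      intro y hy
      refine ⟨Q.mul_mem (hxQ y hy) (Q.inv_mem hy), ?_⟩
      have h1 := hq (π y) ⟨y, hy, rfl⟩
      have h2 : π (x * y * x⁻¹ * y⁻¹) = 1 := by
        simp only [map_mul, map_inv]
        rw [h1]
        group
      exact (QuotientGroup.eq_one_iff _).mp h2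
    have hfin : ∀ y : G, x * y * x⁻¹ * y⁻¹ = 1 → x * y = y * x := by
      intro y h
      have : x * y * x⁻¹ = y := by
        rw [mul_inv_eq_one] at h
        exact h
      calc x * y = x * y * x⁻¹ * x := by group
        _ = y * x := by rw [this]
    rcases hRc with ⟨m, hm⟩ | hRc
    · have hRp : IsPGroup p R := IsPGroup.of_card hm
      have hb : R ⊓ Q = ⊥ := inf_eq_bot_of_isPGroup_of_coprime hRp hQ
      intro y hy
      have := hc y hy
      rw [inf_comm, hb, Subgroup.mem_bot] at this
      exact hfin y this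
    · -- `R` is a `p'`-group
      set Q₀ := Q ⊓ R with hQ₀
      have hPR : (P : Subgroup G) ⊓ R = ⊥ := inf_eq_bot_of_isPGroup_of_coprime P.isPGroup' hRc
      -- `P` centralizes `Q₀`
      have hPQ₀ : ∀ u ∈ (P : Subgroup G), ∀ z ∈ Q₀, u * z = z * u := by
        intro u hu z hz
        have h1 : u * z * u⁻¹ * z⁻¹ ∈ (P : Subgroup G) ⊓ R := by
          refine ⟨?_, ?_⟩
          · have : u * z * u⁻¹ * z⁻¹ = u * (z * u⁻¹ * z⁻¹) := by group
            rw [this]
            exact Subgroup.mul_mem _ hu (hQP z hz.1 _ (Subgroup.inv_mem _ hu))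
          · exact R.mul_mem (hRn.conj_mem z hz.2 u) (R.inv_mem hz.2)
        rw [hPR, Subgroup.mem_bot, mul_inv_eq_one, mul_inv_eq_iff_eq_mul] at h1
        exact h1
      set N := Subgroup.normalizer (Q₀ : Set G) with hN
      have hPN : (P : Subgroup G) ≤ N := by
        rw [hN, Subgroup.le_normalizer_iff]
        intro u hu z hz
        rw [hPQ₀ u hu z hz]
        simpa using hz
      have hxN : x ∈ N := by
        rw [hN]
        refine Cfsg.Agent.Lib.Core.CoprimeMap.mem_normalizer_of_forall_conj_mem ?_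
        intro z hz
        exact ⟨hxQ z hz.1, hRn.conj_mem z hz.2 x⟩
      obtain ⟨u, huN, hu⟩ := exists_conj_mem_of_sylow_le P hPN hxN hx
      -- `x` centralizes `Q₀`
      have hxQ₀ : ∀ z ∈ Q₀, x * z = z * x := by
        intro z hz
        have hz' : u * z * u⁻¹ ∈ Q₀ := by
          exact (Subgroup.mem_normalizer_iff.mp huN z).mp hz
        have h1 := hPQ₀ _ hu _ hz'
        have h2 : u * x * u⁻¹ * (u * z * u⁻¹) = u * (x * z) * u⁻¹ := by group
        have h3 : u * z * u⁻¹ * (u * x * u⁻¹) = u * (z * x) * u⁻¹ := by group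
        rw [h2, h3] at h1
        exact mul_left_cancel (mul_right_cancel h1)
      intro y hy
      have hcy := hc y hy
      set c := x * y * x⁻¹ * y⁻¹ with hcdef
      have hxy : x * y * x⁻¹ = c * y := by rw [hcdef]; group
      have hpow : ∀ k : ℕ, x ^ k * y * (x ^ k)⁻¹ = c ^ k * y := by
        intro k
        induction k with
        | zero => simp
        | succ k ih =>
          have h1 : x ^ (k + 1) * y * (x ^ (k + 1))⁻¹ = x ^ k * (x * y * x⁻¹) * (x ^ k)⁻¹ := by
            rw [pow_succ]; group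
          rw [h1, hxy]
          have hcomm : x ^ k * c = c * x ^ k := by
            exact ((Commute.pow_left (hxQ₀ c hcy) k)).eq
          have h2 : x ^ k * (c * y) * (x ^ k)⁻¹ = (x ^ k * c) * y * (x ^ k)⁻¹ := by group
          rw [h2, hcomm]
          have h3 : c * x ^ k * y * (x ^ k)⁻¹ = c * (x ^ k * y * (x ^ k)⁻¹) := by group
          rw [h3, ih]
          rw [pow_succ']
          group
      obtain ⟨k, hk⟩ := hx
      have h1 := hpow (p ^ k)
      rw [hk] at h1
      simp only [one_mul, inv_one, mul_one] at h1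
      have h2 : c ^ p ^ k = 1 := by
        have : y = c ^ p ^ k * y := h1
        exact (mul_eq_right.mp this.symm)
      have h3 : (orderOf c).Coprime p := (coprime_card_iff_forall_orderOf Q).mp hQ c hcy.1
      have h4 : orderOf c ∣ p ^ k := orderOf_dvd_of_pow_eq_one h2
      have h5 : orderOf c = 1 := by
        exact Nat.Coprime.eq_one_of_dvd (h3.pow_right k) h4
      have h6 : c = 1 := orderOf_eq_one_iff.mp h5
      exact hfin y h6

end Cfsg.Agent.Lib.Core.PSolvable3
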